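import Cfsg.Agent.H3.Unitary

/-!
Character sums of Hermitian forms in three variables over a field with 16 elements.
-/

set_option autoImplicit false

namespace Cfsg.Agent.H23.UThreeFour

open scoped BigOperators

variable {F : Type*} [Field F] [Fintype F] (hF : Fintype.card F = 4 ^ 2)

include hF

theorem pow_sixteen (c : F) : c ^ 16 = c := by
  have h := FiniteField.pow_card c
  rw [hF] at h
  simpa using h

theorem two_eq_zero : (2 : F) = 0 := by
  have h : ((Fintype.card F : ℕ) : F) = 0 := FiniteField.cast_card_eq_zero F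
  rw [hF] at h
  push_cast at h
  have h2 : (2 : F) ^ 4 = 0 := by linear_combination h
  exact eq_zero_of_pow_eq_zero h2

theorem charP_two : CharP F 2 :=
  CharTwo.of_one_ne_zero_of_two_eq_zero one_ne_zero (two_eq_zero hF)

theorem add_pow_four (a b : F) : (a + b) ^ 4 = a ^ 4 + b ^ 4 := H3.add_pow_q hF a b

theorem add_pow_two_char (a b : F) : (a + b) ^ 2 = a ^ 2 + b ^ 2 := by
  linear_combination (a * b) * two_eq_zero hF

omit [Fintype F] hF in
/-- The absolute trace. -/
def tr (c : F) : F := c + c ^ 2 + c ^ 4 + c ^ 8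

omit [Fintype F] hF in
open scoped Classical in
/-- The additive character `c ↦ (-1) ^ tr c`. -/
noncomputable def chr (c : F) : ℤ := if tr c = 0 then 1 else -1

theorem tr_sq (c : F) : tr (c ^ 2) = tr c := by
  have h := pow_sixteen hF c
  simp only [tr, ← pow_mul]
  linear_combination h

theorem tr_add (a b : F) : tr (a + b) = tr a + tr b := by
  have h4 := add_pow_four hF a b
  have h2 := add_pow_two_char hF a b
  have h8 : (a + b) ^ 8 = a ^ 8 + b ^ 8 := by
    have := add_pow_two_char hF (a ^ 4) (b ^ 4)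
    rw [← h4, ← pow_mul, ← pow_mul, ← pow_mul] at this
    exact this
  simp only [tr, h4, h2, h8]
  ring

theorem tr_cases (c : F) : tr c = 0 ∨ tr c = 1 := by
  have h : tr c * tr c = tr c := by
    have h1 : tr c ^ 2 = tr (c ^ 2) := by
      simp only [tr, add_pow_two_char hF, ← pow_mul]
    rw [← pow_two, h1, tr_sq hF]
  rcases eq_or_ne (tr c) 0 with h0 | h0
  · exact Or.inl h0
  · exact Or.inr (mul_right_cancel₀ h0 (by rw [h, one_mul]))

theorem chr_add (a b : F) : chr (a + b) = chr a * chr b := by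
  have h1 : (1 : F) + 1 = 0 := by linear_combination two_eq_zero hF
  have h := tr_add hF a b
  rcases tr_cases hF a with ha | ha <;> rcases tr_cases hF b with hb | hb <;>
    rw [ha, hb] at h <;> simp [chr, ha, hb, h, h1]

omit [Fintype F] hF in
theorem chr_zero : chr (0 : F) = 1 := by simp [chr, tr]

omit [Fintype F] hF in
theorem chr_mul_self (c : F) : chr c * chr c = 1 := by
  by_cases h : tr c = 0 <;> simp [chr, h]

theorem exists_chr_neg : ∃ c : F, chr c = -1 := by
  obtain ⟨y, hy, hy0, hy1⟩ : ∃ y : F, y ^ 4 = y ∧ y ≠ 0 ∧ y ≠ 1 := by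
    classical
    by_contra hcon
    push Not at hcon
    have hc := H3.card_fixed hF
    have : Nat.card {x : F // x ^ 4 = x} ≤ 2 := by
      refine le_trans (Nat.card_le_card_of_injective
        (fun x : {x : F // x ^ 4 = x} => if x.1 = 0 then (0 : Fin 2) else 1) ?_) (by simp)
      intro a b hab
      apply Subtype.ext
      by_cases ha : a.1 = 0 <;> by_cases hb : b.1 = 0 <;> simp [ha, hb] at hab ⊢
      rw [hcon a.1 a.2 ha, hcon b.1 b.2 hb]
    omega
  obtain ⟨c, hc⟩ := H3.exists_trace_eq hF hy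
  refine ⟨c, ?_⟩
  have h1 : tr c = y + y ^ 2 := by
    simp only [tr, ← hc, add_pow_two_char hF, ← pow_mul]
    ring
  have h2 : y * (y - 1) * (y ^ 2 + y + 1) = 0 := by linear_combination hy
  rcases mul_eq_zero.mp h2 with h3 | h3
  · rcases mul_eq_zero.mp h3 with h4 | h4
    · exact absurd h4 hy0
    · exact absurd (sub_eq_zero.mp h4) hy1
  have h4 : y + y ^ 2 = 1 := by linear_combination h3 - two_eq_zero hF
  simp [chr, h1, h4]

theorem chr_trace_twist {ε : F} (hε : ε + ε ^ 4 = 1) (c : F) :
    chr (ε * (c + c ^ 4)) = chr c := by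
  have h4 : ∀ a : F, tr (a ^ 4) = tr a := fun a => by
    rw [show a ^ 4 = (a ^ 2) ^ 2 by ring, tr_sq hF, tr_sq hF]
  have h1 : tr (ε * c ^ 4) = tr (ε ^ 4 * c) := by
    rw [← h4 (ε * c ^ 4), mul_pow, ← pow_mul, pow_sixteen hF]
  have h2 : tr (ε * (c + c ^ 4)) = tr c := by
    rw [mul_add, tr_add hF, h1, ← tr_add hF, ← add_mul, hε, one_mul]
  unfold chr
  by_cases h : tr c = 0
  · rw [if_pos h, if_pos (h2.trans h)]
  · rw [if_neg h, if_neg (by rwa [h2])]

/-- A nonzero additive map with image closed under scalars has vanishing character sum. -/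
theorem sum_chr_eq_zero {A : Type*} [AddCommGroup A] [Fintype A] (f : A →+ F) {a₀ : A}
    (ha₀ : f a₀ ≠ 0) (hclosed : ∀ c : F, ∃ a, f a = c * f a₀) : ∑ a, chr (f a) = 0 := by
  obtain ⟨c, hc⟩ := exists_chr_neg hF
  obtain ⟨a, ha⟩ := hclosed (c / f a₀)
  rw [div_mul_cancel₀ _ ha₀] at ha
  have h := Equiv.sum_comp (Equiv.addRight a) (fun x => chr (f x))
  simp only [Equiv.coe_addRight, map_add, chr_add hF, ha, hc, mul_neg, mul_one,
    Finset.sum_neg_distrib] at h
  omega

omit hF in
/-- A set of vectors invariant under a scalar of prime order is, modulo that prime, as large as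
its intersection with `{0}`. -/
theorem card_modEq_zero_mem {p : ℕ} [Fact p.Prime] {z : F} (hz : z ^ p = 1) (hz1 : z ≠ 1)
    (T : Set (Fin 3 → F)) (hT : ∀ v ∈ T, z • v ∈ T) :
    Nat.card T ≡ Nat.card {v : Fin 3 → F // v ∈ T ∧ v = 0} [MOD p] := by
  have hz0 : z ≠ 0 := fun h => by
    rw [h, zero_pow (Fact.out : p.Prime).ne_zero] at hz
    exact zero_ne_one hz
  let u : Fˣ := Units.mk0 z hz0
  have hu : orderOf u = p := orderOf_eq_prime (Units.ext (by simpa [u] using hz))
    (fun h => hz1 (by simpa [u] using congrArg Units.val h))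
  let μ : Subgroup Fˣ := Subgroup.zpowers u
  have hμ : IsPGroup p μ := IsPGroup.of_card (n := 1) (by rw [Nat.card_zpowers, hu, pow_one])
  have hmem : ∀ (c : μ), ∀ v ∈ T, (c : Fˣ) • v ∈ T := by
    intro c v hv
    obtain ⟨n, hn⟩ := mem_powers_iff_mem_zpowers.mpr c.2
    rw [← hn]
    clear hn
    induction n with
    | zero => simpa using hv
    | succ n ih =>
      simp only [pow_succ', mul_smul]
      simpa [u, Units.smul_def] using hT _ ih
  letI : MulAction μ T :=
    { smul := fun c v => ⟨(c : Fˣ) • v.1, hmem c v.1 v.2⟩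
      one_smul := fun v => Subtype.ext (one_smul Fˣ v.1)
      mul_smul := fun c d v => Subtype.ext (mul_smul (c : Fˣ) d v.1) }
  refine (hμ.card_modEq_card_fixedPoints T).trans ?_
  suffices e : MulAction.fixedPoints μ T ≃ {v : Fin 3 → F // v ∈ T ∧ v = 0} by
    rw [Nat.card_congr e]
  refine
    { toFun := fun v => ⟨v.1.1, v.1.2, ?_⟩
      invFun := fun v => ⟨⟨v.1, v.2.1⟩, fun c => Subtype.ext ?_⟩
      left_inv := fun v => rfl
      right_inv := fun v => rfl }
  · have h : z • v.1.1 = v.1.1 := by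
      have := congrArg Subtype.val (v.2 ⟨u, Subgroup.mem_zpowers u⟩)
      exact this
    have : (z - 1) • v.1.1 = 0 := by rw [sub_smul, h, one_smul, sub_self]
    exact (smul_eq_zero.mp this).resolve_left (sub_ne_zero.mpr hz1)
  · show (c : Fˣ) • v.1 = v.1
    rw [v.2.2, smul_zero]

omit [Fintype F] hF in
/-- The Hermitian form on `F ^ 3`. -/
noncomputable abbrev h3 (u v : Fin 3 → F) : F := hermForm 3 F 4 u v

omit hF in
/-- The character sum of the form `v ↦ h(v, B v)`. -/
noncomputable def hermSum (ε : F) (B : (Fin 3 → F) →ₗ[F] (Fin 3 → F)) : ℤ :=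
  ∑ v : Fin 3 → F, chr (ε * h3 v (B v))

theorem sum_chr_herm (w : Fin 3 → F) [Decidable (w = 0)] :
    ∑ v : Fin 3 → F, chr (h3 v w) = if w = 0 then 4096 else 0 := by
  split_ifs with h
  · subst h
    simp [h3, H3.hermForm_zero_right hF, chr_zero, hF]
  · obtain ⟨x, hx⟩ := H3.exists_hermForm_eq_one hF h
    exact sum_chr_eq_zero hF
      (AddMonoidHom.mk' (fun v => h3 v w) fun a b => H3.hermForm_add_left hF a b w)
      (a₀ := x) (by simp [h3, hx]) fun c => ⟨c • x, H3.hermForm_smul_left hF c x w⟩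

theorem hermSum_sq {ε : F} (hε : ε + ε ^ 4 = 1) (B : (Fin 3 → F) →ₗ[F] (Fin 3 → F))
    (hB : ∀ u v, h3 (B u) v = h3 u (B v)) :
    hermSum ε B * hermSum ε B = 4096 * Nat.card (LinearMap.ker B) := by
  classical
  set q : (Fin 3 → F) → F := fun v => h3 v (B v) with hq
  have hpol : ∀ v u, chr (ε * q (v + u)) = chr (ε * q v) * chr (ε * q u) * chr (h3 v (B u)) := by
    intro v u
    have h1 : h3 u (B v) = h3 v (B u) ^ 4 := by
      rw [← hB u v]
      exact (H3.hermForm_pow_q hF v (B u)).symm
    have h2 : q (v + u) = q v + q u + (h3 v (B u) + h3 v (B u) ^ 4) := by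
      simp only [hq, map_add, H3.hermForm_add_left hF, H3.hermForm_add_right hF, h3] at *
      rw [h1]
      ring
    rw [h2, mul_add, mul_add, chr_add hF, chr_add hF, chr_trace_twist hF hε]
  have h0 : ∀ u : Fin 3 → F, B u = 0 → chr (ε * q u) = 1 := fun u hu => by
    simp [hq, hu, h3, H3.hermForm_zero_right hF, chr_zero]
  calc hermSum ε B * hermSum ε B
      = ∑ v, ∑ u, chr (ε * q v) * chr (ε * q (v + u)) := by
        rw [hermSum, Finset.sum_mul]
        refine Finset.sum_congr rfl fun v _ => ?_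
        rw [Finset.mul_sum]
        exact (Equiv.sum_comp (Equiv.addLeft v) fun w => chr (ε * q v) * chr (ε * q w)).symm
    _ = ∑ u, chr (ε * q u) * ∑ v, chr (h3 v (B u)) := by
        rw [Finset.sum_comm]
        refine Finset.sum_congr rfl fun u _ => ?_
        rw [Finset.mul_sum]
        refine Finset.sum_congr rfl fun v _ => ?_
        rw [hpol, ← mul_assoc, ← mul_assoc, chr_mul_self, one_mul]
    _ = ∑ u, if B u = 0 then 4096 else 0 := by
        refine Finset.sum_congr rfl fun u _ => ?_
        rw [sum_chr_herm hF]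
        split_ifs with h
        · rw [h0 u h, one_mul]
        · rw [mul_zero]
    _ = _ := by
        rw [← Finset.sum_filter, Finset.sum_const, Nat.card_eq_fintype_card,
          Fintype.card_subtype]
        simp [LinearMap.mem_ker, mul_comm]

theorem exists_zeta : ∃ z : F, z ^ 5 = 1 ∧ z ≠ 1 := by
  have hc := H3.card_norm_eq hF (μ := (1 : F)) one_ne_zero (one_pow 4)
  have : Nontrivial {x : F // x ^ (4 + 1) = 1} :=
    Finite.one_lt_card_iff_nontrivial.1 (by omega)
  obtain ⟨a, ha⟩ := exists_ne (⟨1, one_pow 5⟩ : {x : F // x ^ (4 + 1) = 1})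
  exact ⟨a.1, a.2, fun h => ha (Subtype.ext h)⟩

theorem hermSum_modEq {ε : F} (B : (Fin 3 → F) →ₗ[F] (Fin 3 → F)) :
    hermSum ε B % 5 = 1 := by
  classical
  obtain ⟨z, hz, hz1⟩ := exists_zeta hF
  haveI : Fact (Nat.Prime 5) := ⟨by norm_num⟩
  let T : Set (Fin 3 → F) := {v | tr (ε * h3 v (B v)) = 0}
  have hT : ∀ v ∈ T, z • v ∈ T := by
    intro v hv
    have e : h3 (z • v) (B (z • v)) = h3 v (B v) := by
      simp only [h3, map_smul, H3.hermForm_smul_left hF, H3.hermForm_smul_right hF]
      rw [← mul_assoc, ← pow_succ', hz, one_mul]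
    show tr (ε * h3 (z • v) (B (z • v))) = 0
    rw [e]
    exact hv
  have h1 := card_modEq_zero_mem hz hz1 T hT
  have h2 : Nat.card {v : Fin 3 → F // v ∈ T ∧ v = 0} = 1 := by
    rw [Nat.card_eq_one_iff_exists]
    exact ⟨⟨0, by simp [T, h3, H3.hermForm_zero_left hF, tr], rfl⟩,
      fun b => Subtype.ext b.2.2⟩
  rw [h2] at h1
  have h3' : hermSum ε B = 2 * (Nat.card T : ℤ) - 4096 := by
    have e : ∀ v : Fin 3 → F, chr (ε * h3 v (B v)) = 2 * (if v ∈ T then (1 : ℤ) else 0) - 1 :=
      fun v => by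
        unfold chr
        by_cases h : tr (ε * h3 v (B v)) = 0
        · simp [T, h]
        · simp [T, h]
    simp only [hermSum, e, Finset.sum_sub_distrib, ← Finset.mul_sum]
    congr 1
    · rw [Finset.sum_boole, Nat.card_eq_fintype_card, Fintype.card_subtype]
    · simp [hF]
  unfold Nat.ModEq at h1
  omega

/-- The possible values of the Hermitian character sum. -/
theorem hermSum_values {ε : F} (hε : ε + ε ^ 4 = 1) (B : (Fin 3 → F) →ₗ[F] (Fin 3 → F))
    (hB : ∀ u v, h3 (B u) v = h3 u (B v)) :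
    hermSum ε B = -64 ∨ hermSum ε B = 256 ∨ hermSum ε B = -1024 ∨ hermSum ε B = 4096 := by
  have hsq := hermSum_sq hF hε B hB
  have hmod := hermSum_modEq hF (ε := ε) B
  have hcard : Nat.card (LinearMap.ker B) = 16 ^ Module.finrank F (LinearMap.ker B) := by
    rw [Module.natCard_eq_pow_finrank (K := F), Nat.card_eq_fintype_card, hF]
    norm_num
  have hle : Module.finrank F (LinearMap.ker B) ≤ 3 :=
    le_trans (Submodule.finrank_le _) (by simp)
  have key : ∀ a : ℤ, hermSum ε B * hermSum ε B = a * a → hermSum ε B = a ∨ hermSum ε B = -a :=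
    fun a ha => mul_self_eq_mul_self_iff.mp ha
  rw [hcard] at hsq
  rcases h : Module.finrank F (LinearMap.ker B) with _ | _ | _ | _ | k
  · rcases key 64 (by rw [hsq, h]; norm_num) with e | e <;> omega
  · rcases key 256 (by rw [hsq, h]; norm_num) with e | e <;> omega
  · rcases key 1024 (by rw [hsq, h]; norm_num) with e | e <;> omega
  · rcases key 4096 (by rw [hsq, h]; norm_num) with e | e <;> omega
  · omega

end Cfsg.Agent.H23.UThreeFour
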