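import Cfsg.Agent.H23.UThreeFour.Field
import Cfsg.Agent.H23.UThreeFour.Char
import Cfsg.Agent.H3.Isotropic

/-!
A function on `SU₃(4)` with values in `ZMod 5` summing to zero over every coset of a subgroup of
order 13 (the reduction modulo 5 of the unipotent character of degree 12).
-/

set_option autoImplicit false

namespace Cfsg.Agent.H23.UThreeFour

open scoped BigOperators
open Matrix

variable {F : Type*} [Field F] [Fintype F]

/-- The matrix of an element of `SU₃(4)`. -/
def mat : Cfsg.SU 3 F 4 →* Matrix (Fin 3) (Fin 3) F :=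
  (Cfsg.slToMat 3 F).comp (Cfsg.SU 3 F 4).subtype

omit [Fintype F] in
theorem mat_injective : Function.Injective (mat : Cfsg.SU 3 F 4 → _) :=
  fun _ _ h => Subtype.ext (Subtype.ext h)

omit [Fintype F] in
theorem mat_preserves (g : Cfsg.SU 3 F 4) (u v : Fin 3 → F) :
    h3 (mat g *ᵥ u) (mat g *ᵥ v) = h3 u v := g.2 u v

omit [Fintype F] in
theorem mat_inv_mulVec (g : Cfsg.SU 3 F 4) (u : Fin 3 → F) :
    mat g⁻¹ *ᵥ (mat g *ᵥ u) = u := by
  rw [mulVec_mulVec, ← map_mul, inv_mul_cancel, map_one, one_mulVec]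

omit [Fintype F] in
theorem mat_mulVec_inv (g : Cfsg.SU 3 F 4) (u : Fin 3 → F) :
    mat g *ᵥ (mat g⁻¹ *ᵥ u) = u := by
  rw [mulVec_mulVec, ← map_mul, mul_inv_cancel, map_one, one_mulVec]

/-- An eigenvector for an eigenvalue of fifth power one. -/
def IsMuFiveEigen (g : Cfsg.SU 3 F 4) (v : Fin 3 → F) : Prop :=
  ∃ z : F, z ^ 5 = 1 ∧ mat g *ᵥ v = z • v

/-- The number of those eigenvectors. -/
noncomputable def eigCount (g : Cfsg.SU 3 F 4) : ℕ :=
  Nat.card {v : Fin 3 → F // v ≠ 0 ∧ IsMuFiveEigen g v}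

/-- The class function. -/
noncomputable def weilTwelve (g : Cfsg.SU 3 F 4) : ZMod 5 := ((eigCount g / 15 : ℕ) : ZMod 5) - 1

theorem weilTwelve_one (hF : Fintype.card F = 4 ^ 2) : weilTwelve (1 : Cfsg.SU 3 F 4) ≠ 0 := by
  classical
  have h : eigCount (1 : Cfsg.SU 3 F 4) = 4095 := by
    have e : ∀ v : Fin 3 → F, IsMuFiveEigen (1 : Cfsg.SU 3 F 4) v := fun v =>
      ⟨1, one_pow 5, by rw [map_one, one_mulVec, one_smul]⟩
    rw [eigCount, Nat.card_congr (Equiv.subtypeEquivRight (q := fun v : Fin 3 → F => v ≠ 0)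
      fun v => ⟨fun h => h.1, fun h => ⟨h, e v⟩⟩), Nat.card_eq_fintype_card,
      Fintype.card_subtype_compl, Fintype.card_fun, hF, Fintype.card_subtype_eq]
    rfl
  rw [weilTwelve, h]
  decide

theorem fifteen_dvd_eigCount (hF : Fintype.card F = 4 ^ 2) (g : Cfsg.SU 3 F 4) :
    15 ∣ eigCount g := by
  classical
  have key : ∀ (p : ℕ) [Fact p.Prime], p ∣ 15 → p ∣ eigCount g := by
    intro p _ hp
    have hU : Fintype.card Fˣ = 15 := by rw [Fintype.card_units, hF]; rfl
    obtain ⟨u, hu⟩ := exists_prime_orderOf_dvd_card p (G := Fˣ) (hU ▸ hp)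
    have hz : (u : F) ^ p = 1 := by
      rw [← Units.val_pow_eq_pow_val, ← hu, pow_orderOf_eq_one, Units.val_one]
    have hz1 : (u : F) ≠ 1 := fun h => by
      rw [Units.val_eq_one] at h
      rw [h, orderOf_one] at hu
      exact (Fact.out : p.Prime).ne_one hu.symm
    have h := card_modEq_zero_mem (F := F) hz hz1 {v | v ≠ 0 ∧ IsMuFiveEigen g v}
      (by
        rintro v ⟨hv, w, hw, hwv⟩
        exact ⟨smul_ne_zero u.ne_zero hv, w, hw, by rw [mulVec_smul, hwv, smul_comm]⟩)
    have h0 : Nat.card {v : Fin 3 → F // v ∈ {v | v ≠ 0 ∧ IsMuFiveEigen g v} ∧ v = 0} = 0 := by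
      haveI : IsEmpty {v : Fin 3 → F // v ∈ {v | v ≠ 0 ∧ IsMuFiveEigen g v} ∧ v = 0} :=
        ⟨fun v => v.2.1.1 v.2.2⟩
      exact Nat.card_of_isEmpty
    rw [h0] at h
    exact Nat.modEq_zero_iff_dvd.mp h
  haveI : Fact (Nat.Prime 3) := ⟨by norm_num⟩
  haveI : Fact (Nat.Prime 5) := ⟨by norm_num⟩
  exact (show Nat.Coprime 3 5 by norm_num).mul_dvd_of_dvd_of_dvd (key 3 (by norm_num))
    (key 5 (by norm_num))

section Cubic

variable {L : Type*} [Field L] [Fintype L] [Algebra F L]
  (φ : L →ₐ[F] Matrix (Fin 3) (Fin 3) F) (x : Cfsg.SU 3 F 4) (ξ : L)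

/-- The map `k + k ^ 64`. -/
def cubicTrace (hadd : ∀ a b : L, (a + b) ^ 64 = a ^ 64 + b ^ 64) : L →+ L :=
  AddMonoidHom.mk' (fun k => k + k ^ 64) fun a b => by rw [hadd]; ring

/-- Vectors with the same Hermitian data as their image. -/
def SameForms (g : Cfsg.SU 3 F 4) (v : Fin 3 → F) : Prop :=
  ∀ k : L, h3 (mat g *ᵥ v) (φ k *ᵥ (mat g *ᵥ v)) = h3 v (φ k *ᵥ v)

/-- The difference operator. -/
noncomputable def diffMap (g : Cfsg.SU 3 F 4) (k : L) : (Fin 3 → F) →ₗ[F] (Fin 3 → F) :=
  Matrix.mulVecLin (mat g⁻¹ * φ k * mat g - φ k)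

omit [Fintype L] in
theorem diffMap_apply (g : Cfsg.SU 3 F 4) (k : L) (u : Fin 3 → F) :
    diffMap φ g k u = mat g⁻¹ *ᵥ (φ k *ᵥ (mat g *ᵥ u)) - φ k *ᵥ u := by
  simp [diffMap, sub_mulVec, mulVec_mulVec, Matrix.mul_assoc]

variable (hF : Fintype.card F = 4 ^ 2) (hrank : Module.finrank F L = 3)
  (hcard : Fintype.card L = 4096) (hξ : φ ξ = mat x) (hx : orderOf x = 13)
  (hgen : Algebra.adjoin F {ξ} = ⊤)

include hF in
omit [Fintype L] in
theorem pow_add_sixty_four (a b : L) : (a + b) ^ 64 = a ^ 64 + b ^ 64 := by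
  haveI := charP_two hF
  haveI : CharP L 2 := charP_of_injective_algebraMap (algebraMap F L).injective 2
  haveI : Fact (Nat.Prime 2) := ⟨Nat.prime_two⟩
  exact add_pow_char_pow a b 2 6

include hξ hx in
omit [Fintype L] in
theorem xi_pow : ξ ^ 13 = 1 := by
  apply φ.toRingHom.injective
  show φ (ξ ^ 13) = φ 1
  rw [map_pow, hξ, ← map_pow, ← hx, pow_orderOf_eq_one, map_one, map_one]

include hF hξ hx in
omit [Fintype L] in
theorem xi_primitive : IsPrimitiveRoot ξ 13 := by
  have h1 : ξ ≠ 1 := by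
    intro h
    rw [h, map_one] at hξ
    have : x = 1 := mat_injective (by rw [← hξ, map_one])
    rw [this, orderOf_one] at hx
    omega
  have := hF
  haveI : Fact (Nat.Prime 13) := ⟨by norm_num⟩
  exact (IsPrimitiveRoot.iff_orderOf).mpr (orderOf_eq_prime (xi_pow φ x ξ hξ hx) h1)

include hF hξ hx hgen in
omit [Fintype L] in
theorem adjoint_pow (l : L) (u v : Fin 3 → F) :
    h3 (φ l *ᵥ u) v = h3 u (φ (l ^ 64) *ᵥ v) := by
  have hl : l ∈ Algebra.adjoin F ({ξ} : Set L) := by rw [hgen]; trivial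
  revert u v
  induction hl using Algebra.adjoin_induction with
  | mem y hy =>
    intro u v
    rw [Set.mem_singleton_iff] at hy
    subst hy
    have e : y ^ 64 = y ^ 12 := by
      rw [show (64 : ℕ) = 13 * 4 + 12 from rfl, pow_add, pow_mul, xi_pow φ x y hξ hx, one_pow,
        one_mul]
    rw [hξ, e, map_pow, hξ]
    conv_rhs => rw [← mat_preserves x u, mulVec_mulVec, ← pow_succ', ← map_pow, show 12 + 1 = 13 from rfl, ← hx,
      pow_orderOf_eq_one, map_one, one_mulVec]
  | algebraMap c =>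
    intro u v
    have e : c ^ 64 = c ^ 4 := by
      rw [show (64 : ℕ) = 16 * 4 from rfl, pow_mul, pow_sixteen hF]
    rw [← map_pow, e, AlgHom.commutes, AlgHom.commutes, Algebra.algebraMap_eq_smul_one,
      Algebra.algebraMap_eq_smul_one, smul_mulVec, one_mulVec, smul_mulVec, one_mulVec]
    simp only [h3, H3.hermForm_smul_left hF, H3.hermForm_smul_right hF, ← pow_mul]
    rw [show 4 * 4 = 16 from rfl, pow_sixteen hF]
  | add a b _ _ iha ihb =>
    intro u v
    rw [pow_add_sixty_four hF, map_add, map_add, add_mulVec, add_mulVec]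
    simp only [h3, H3.hermForm_add_left hF, H3.hermForm_add_right hF] at *
    rw [iha, ihb]
  | mul a b _ _ iha ihb =>
    intro u v
    rw [map_mul, ← mulVec_mulVec, iha, ihb, mulVec_mulVec, ← map_mul, mul_comm (b ^ 64),
      ← mul_pow]

include hF in
omit [Fintype L] in
theorem phi_mulVec_ne_zero {l : L} (hl : l ≠ 0) {v : Fin 3 → F} (hv : v ≠ 0) :
    φ l *ᵥ v ≠ 0 := by
  intro h
  have := hF
  apply hv
  have e := congrArg (φ l⁻¹ *ᵥ ·) h
  simpa [mulVec_mulVec, ← map_mul, inv_mul_cancel₀ hl] using e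

include hF hrank in
omit [Fintype L] in
theorem phi_orbit {v : Fin 3 → F} (hv : v ≠ 0) (w : Fin 3 → F) : ∃ l : L, φ l *ᵥ v = w := by
  haveI : Module.Finite F L := Module.finite_of_finrank_eq_succ hrank
  let f : L →ₗ[F] (Fin 3 → F) :=
    { toFun := fun l => φ l *ᵥ v
      map_add' := fun a b => by rw [map_add, add_mulVec]
      map_smul' := fun c a => by rw [map_smul, smul_mulVec, RingHom.id_apply] }
  have hinj : Function.Injective f := by
    refine (injective_iff_map_eq_zero f).mpr fun l hl => ?_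
    by_contra h
    exact phi_mulVec_ne_zero φ hF h hv hl
  exact (LinearMap.injective_iff_surjective_of_finrank_eq_finrank (by simp [hrank])).mp hinj w

include hF hξ hx in
omit [Fintype L] in
theorem pow_sixty_five_eq_one_iff {s : L} :
    s ^ 65 = 1 ↔ ∃ z : F, ∃ i < 13, z ^ 5 = 1 ∧ s = algebraMap F L z * ξ ^ i := by
  constructor
  · intro hs
    obtain ⟨ζ, hζ, hζ1⟩ := exists_zeta hF
    haveI : Fact (Nat.Prime 5) := ⟨by norm_num⟩
    have hp : IsPrimitiveRoot (algebraMap F L ζ) 5 :=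
      ((IsPrimitiveRoot.iff_orderOf).mpr (orderOf_eq_prime hζ hζ1)).map_of_injective
        (algebraMap F L).injective
    obtain ⟨a, -, ha⟩ := hp.eq_pow_of_pow_eq_one (ξ := s ^ 13) (by rw [← pow_mul]; exact hs)
    obtain ⟨b, -, hb⟩ := (xi_primitive φ x ξ hF hξ hx).eq_pow_of_pow_eq_one (ξ := s ^ 5)
      (by rw [← pow_mul]; exact hs)
    refine ⟨ζ ^ (2 * a), (8 * b) % 13, Nat.mod_lt _ (by norm_num), ?_, ?_⟩
    · rw [← pow_mul, mul_comm, pow_mul, hζ, one_pow]
    · rw [← pow_eq_pow_mod _ (xi_pow φ x ξ hξ hx), map_pow, mul_comm 2 a, mul_comm 8 b, pow_mul,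
        pow_mul, ha, hb, ← pow_mul, ← pow_mul, ← pow_add,
        show 13 * 2 + 5 * 8 = 65 + 1 from rfl, pow_add, hs, one_mul, pow_one]
  · rintro ⟨z, i, -, hz, rfl⟩
    rw [mul_pow, ← map_pow, ← pow_mul, show (65 : ℕ) = 5 * 13 from rfl, pow_mul, hz, one_pow,
      map_one, one_mul, show i * (5 * 13) = 13 * (i * 5) by ring, pow_mul,
      xi_pow φ x ξ hξ hx, one_pow]

include hF hξ in
omit [Fintype L] in
theorem algebraMap_mul_pow_mulVec (z : F) (i : ℕ) (v : Fin 3 → F) :
    φ (algebraMap F L z * ξ ^ i) *ᵥ v = z • (mat (x ^ i) *ᵥ v) := by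
  have := hF
  rw [map_mul, AlgHom.commutes, map_pow, hξ, ← map_pow, Algebra.algebraMap_eq_smul_one,
    smul_mul_assoc, one_mul, smul_mulVec]

include hF hrank hξ hx hgen in
omit [Fintype L] in
theorem sameForms_iff (g : Cfsg.SU 3 F 4) {v : Fin 3 → F} (hv : v ≠ 0) :
    SameForms φ g v ↔ ∃ i < 13, IsMuFiveEigen (x ^ i * g) v := by
  constructor
  · intro h
    obtain ⟨s, hs⟩ := phi_orbit φ hF hrank hv (mat g *ᵥ v)
    have hd : s ^ 65 - 1 = 0 := by
      by_contra hd
      apply hv
      have key : ∀ w, h3 v w = 0 := by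
        intro w
        obtain ⟨l, rfl⟩ := phi_orbit φ hF hrank hv w
        obtain ⟨k, rfl⟩ : ∃ k, (s ^ 65 - 1) * k = l :=
          ⟨(s ^ 65 - 1)⁻¹ * l, mul_inv_cancel_left₀ hd l⟩
        have hk := h k
        rw [← hs, adjoint_pow φ x ξ hF hξ hx hgen, mulVec_mulVec, ← map_mul, mulVec_mulVec,
          ← map_mul] at hk
        rw [show (s ^ 65 - 1) * k = s ^ 64 * k * s - k by ring, map_sub, sub_mulVec]
        simp only [h3, H3.hermForm_sub_right hF] at hk ⊢
        rw [hk, sub_self]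
      by_contra hv'
      obtain ⟨w, hw⟩ := H3.exists_hermForm_eq_one hF hv'
      have := (H3.hermForm_eq_zero_comm hF).mp (key w)
      rw [hw] at this
      exact one_ne_zero this
    obtain ⟨z, i, hi, hz, rfl⟩ :=
      (pow_sixty_five_eq_one_iff φ x ξ hF hξ hx).mp (sub_eq_zero.mp hd)
    rw [algebraMap_mul_pow_mulVec φ x ξ hF hξ] at hs
    refine ⟨(13 - i) % 13, Nat.mod_lt _ (by norm_num), z, hz, ?_⟩
    have hx13 : x ^ 13 = 1 := by rw [← hx, pow_orderOf_eq_one]
    rw [map_mul, ← mulVec_mulVec, ← hs, mulVec_smul, mulVec_mulVec, ← map_mul,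
      ← pow_eq_pow_mod _ hx13, ← pow_add, show 13 - i + i = 13 by omega, hx13, map_one,
      one_mulVec]
  · rintro ⟨i, hi, z, hz, hiv⟩ k
    have hx13 : x ^ 13 = 1 := by rw [← hx, pow_orderOf_eq_one]
    have hgv : mat g *ᵥ v = φ (algebraMap F L z * ξ ^ (13 - i)) *ᵥ v := by
      rw [algebraMap_mul_pow_mulVec φ x ξ hF hξ, ← mulVec_smul, ← hiv, mulVec_mulVec, ← map_mul,
        ← mul_assoc, ← pow_add, show 13 - i + i = 13 by omega, hx13, one_mul]
    set s := algebraMap F L z * ξ ^ (13 - i) with hs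
    have hs65 : s ^ 65 = 1 := by
      refine (pow_sixty_five_eq_one_iff φ x ξ hF hξ hx).mpr
        ⟨z, (13 - i) % 13, Nat.mod_lt _ (by norm_num), hz, ?_⟩
      rw [hs, ← pow_eq_pow_mod _ (xi_pow φ x ξ hξ hx)]
    rw [hgv, adjoint_pow φ x ξ hF hξ hx hgen, mulVec_mulVec, ← map_mul, mulVec_mulVec,
      ← map_mul, show s ^ 64 * k * s = s ^ 65 * k by ring, hs65, one_mul]

include hF hξ hx in
omit [Fintype L] in
theorem eigen_index_unique (g : Cfsg.SU 3 F 4) {v : Fin 3 → F} (hv : v ≠ 0) {i j : ℕ}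
    (hi : i < 13) (hj : j < 13) (h₁ : IsMuFiveEigen (x ^ i * g) v)
    (h₂ : IsMuFiveEigen (x ^ j * g) v) : i = j := by
  obtain ⟨z, hz, h₁⟩ := h₁
  obtain ⟨w, hw, h₂⟩ := h₂
  rw [map_mul, ← mulVec_mulVec] at h₁ h₂
  set y := mat g *ᵥ v
  have hy : y ≠ 0 := fun h => hv (by rw [← mat_inv_mulVec g v]; show mat g⁻¹ *ᵥ y = 0; rw [h, mulVec_zero])
  have e : φ (algebraMap F L w * ξ ^ i - algebraMap F L z * ξ ^ j) *ᵥ y = 0 := by
    rw [map_sub, sub_mulVec, algebraMap_mul_pow_mulVec φ x ξ hF hξ,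
      algebraMap_mul_pow_mulVec φ x ξ hF hξ, h₁, h₂, smul_comm, sub_self]
  have e2 : algebraMap F L w * ξ ^ i = algebraMap F L z * ξ ^ j := by
    by_contra h
    exact phi_mulVec_ne_zero φ hF (sub_ne_zero.mpr h) hy e
  have e3 := congrArg (· ^ 5) e2
  simp only [mul_pow, ← map_pow, hz, hw, map_one, one_mul, ← pow_mul] at e3
  rw [pow_eq_pow_mod (i * 5) (xi_pow φ x ξ hξ hx), pow_eq_pow_mod (j * 5) (xi_pow φ x ξ hξ hx)]
    at e3
  have hmod := (xi_primitive φ x ξ hF hξ hx).pow_inj (Nat.mod_lt _ (by norm_num))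
    (Nat.mod_lt _ (by norm_num)) e3
  omega

omit [Fintype L] in
include hF hξ hx hgen in
theorem diffMap_adjoint (g : Cfsg.SU 3 F 4) {k : L} (hk : k ^ 64 = k) (u v : Fin 3 → F) :
    h3 (diffMap φ g k u) v = h3 u (diffMap φ g k v) := by
  have hA := adjoint_pow φ x ξ hF hξ hx hgen k
  rw [hk] at hA
  rw [diffMap_apply, diffMap_apply]
  simp only [h3, H3.hermForm_sub_left hF, H3.hermForm_sub_right hF] at *
  rw [hA u v]
  congr 1
  calc hermForm 3 F 4 (mat g⁻¹ *ᵥ (φ k *ᵥ (mat g *ᵥ u))) v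
      = hermForm 3 F 4 (φ k *ᵥ (mat g *ᵥ u)) (mat g *ᵥ v) := by
        have := mat_preserves g (mat g⁻¹ *ᵥ (φ k *ᵥ (mat g *ᵥ u))) v
        rw [mat_mulVec_inv] at this
        exact this.symm
    _ = hermForm 3 F 4 (mat g *ᵥ u) (φ k *ᵥ (mat g *ᵥ v)) := hA _ _
    _ = _ := by
        have := mat_preserves g u (mat g⁻¹ *ᵥ (φ k *ᵥ (mat g *ᵥ v)))
        rw [mat_mulVec_inv] at this
        exact this

include hF in
omit [Fintype L] in
theorem herm_diffMap (g : Cfsg.SU 3 F 4) (k : L) (v : Fin 3 → F) :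
    h3 v (diffMap φ g k v) =
      h3 (mat g *ᵥ v) (φ k *ᵥ (mat g *ᵥ v)) - h3 v (φ k *ᵥ v) := by
  rw [diffMap_apply]
  simp only [h3, H3.hermForm_sub_right hF]
  have := mat_preserves g v (mat g⁻¹ *ᵥ (φ k *ᵥ (mat g *ᵥ v)))
  rw [mat_mulVec_inv] at this
  simp only [h3] at this
  rw [this]

include hF hrank in
omit [Fintype L] in
theorem card_ker_diffMap_le (g : Cfsg.SU 3 F 4) {d e : L}
    (hd : d ∉ (algebraMap F L).range) :
    Nat.card (LinearMap.ker (diffMap φ g d)) ≤ Nat.card (LinearMap.ker (diffMap φ g e)) := by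
  haveI : Module.Finite F L := Module.finite_of_finrank_eq_succ hrank
  have := hF
  have hdep : ¬ LinearIndependent F ![d * e, e, d, 1] := by
    intro h
    have := h.fintype_card_le_finrank
    simp [hrank] at this
  obtain ⟨c, hc, i₀, hi₀⟩ := Fintype.not_linearIndependent_iff.mp hdep
  simp only [Fin.sum_univ_four, Algebra.smul_def] at hc
  simp only [show (![d * e, e, d, 1] : Fin 4 → L) 0 = d * e from rfl,
    show (![d * e, e, d, 1] : Fin 4 → L) 1 = e from rfl,
    show (![d * e, e, d, 1] : Fin 4 → L) 2 = d from rfl,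
    show (![d * e, e, d, 1] : Fin 4 → L) 3 = 1 from rfl] at hc
  set A := algebraMap F L with hA
  have hlin : ∀ p q : F, A p * d + A q = 0 → p = 0 ∧ q = 0 := by
    intro p q h
    rcases eq_or_ne p 0 with hp | hp
    · subst hp
      refine ⟨rfl, ?_⟩
      rw [map_zero, zero_mul, zero_add] at h
      exact (map_eq_zero A).mp h
    · refine absurd ⟨-q / p, ?_⟩ hd
      have : A p ≠ 0 := (map_ne_zero A).mpr hp
      rw [map_div₀, map_neg, div_eq_iff this]
      linear_combination -h
  have hu : A (c 0) * d + A (c 1) ≠ 0 := by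
    intro h
    obtain ⟨h0, h1⟩ := hlin _ _ h
    rw [h0, h1, map_zero] at hc
    obtain ⟨h2, h3'⟩ := hlin (c 2) (c 3) (by linear_combination hc)
    fin_cases i₀ <;> simp_all
  set u := A (c 0) * d + A (c 1)
  set t := -(A (c 2) * d + A (c 3))
  have hut : e * u = t := by simp only [u, t]; linear_combination hc
  have hU : ∀ w, φ u *ᵥ w = 0 → w = 0 := fun w hw => by
    by_contra h
    exact phi_mulVec_ne_zero φ hF hu h hw
  have hφu : φ u = c 0 • φ d + c 1 • 1 := by
    simp [u, A, AlgHom.commutes, Algebra.algebraMap_eq_smul_one]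
  have hφt : φ t = -(c 2 • φ d + c 3 • 1) := by
    simp [t, A, AlgHom.commutes, Algebra.algebraMap_eq_smul_one]
  set g' := mat g
  have hkey : φ u * (φ e * g' - g' * φ e) * φ u =
      (c 3 * c 0 - c 2 * c 1) • (φ d * g' - g' * φ d) := by
    have e1 : φ u * (φ e * g' - g' * φ e) * φ u = φ t * g' * φ u - φ u * g' * φ t := by
      rw [Matrix.mul_sub, Matrix.sub_mul, ← Matrix.mul_assoc, ← Matrix.mul_assoc, ← map_mul,
        mul_comm u e, hut, Matrix.mul_assoc (φ u * g'), ← map_mul, hut]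
    rw [e1, hφu, hφt]
    simp only [Matrix.neg_mul, Matrix.mul_neg, Matrix.add_mul, Matrix.mul_add, Matrix.smul_mul,
      Matrix.mul_smul, Matrix.one_mul, Matrix.mul_one, smul_add]
    module
  have hker : ∀ (k : L) w, w ∈ LinearMap.ker (diffMap φ g k) ↔ (φ k * g' - g' * φ k) *ᵥ w = 0 := by
    intro k w
    rw [LinearMap.mem_ker, diffMap_apply, sub_mulVec, ← mulVec_mulVec, ← mulVec_mulVec]
    constructor
    · intro h
      have := congrArg (g' *ᵥ ·) h
      simp only [mulVec_sub, mulVec_zero] at this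
      rwa [mat_mulVec_inv] at this
    · intro h
      have := congrArg (mat g⁻¹ *ᵥ ·) h
      simp only [mulVec_sub, mulVec_zero] at this
      rwa [mat_inv_mulVec] at this
  refine Nat.card_le_card_of_injective
    (fun w => (⟨φ u *ᵥ w.1, ?_⟩ : LinearMap.ker (diffMap φ g e))) ?_
  · rw [hker]
    apply hU
    rw [mulVec_mulVec, mulVec_mulVec, hkey, smul_mulVec, (hker d w.1).mp w.2, smul_zero]
  · intro a b hab
    apply Subtype.ext
    have := congrArg Subtype.val hab
    exact sub_eq_zero.mp (hU _ (by rw [mulVec_sub]; exact sub_eq_zero.mpr this))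

include hF hrank hξ hx hgen in
omit [Fintype L] in
theorem hermSum_diffMap_eq (g : Cfsg.SU 3 F 4) {ε : F} (hε : ε + ε ^ 4 = 1) {d e : L}
    (hd : d ∉ (algebraMap F L).range) (hd' : d ^ 64 = d)
    (he : e ∉ (algebraMap F L).range) (he' : e ^ 64 = e) :
    hermSum ε (diffMap φ g d) = hermSum ε (diffMap φ g e) := by
  have hc := le_antisymm (card_ker_diffMap_le φ hF hrank g (d := d) (e := e) hd)
    (card_ker_diffMap_le φ hF hrank g (d := e) (e := d) he)
  have h1 := hermSum_sq hF hε _ (diffMap_adjoint φ x ξ hF hξ hx hgen g hd')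
  have h2 := hermSum_sq hF hε _ (diffMap_adjoint φ x ξ hF hξ hx hgen g he')
  rw [hc, ← h2] at h1
  rcases mul_self_eq_mul_self_iff.mp h1 with h | h
  · exact h
  · have := hermSum_modEq hF (ε := ε) (diffMap φ g d)
    have := hermSum_modEq hF (ε := ε) (diffMap φ g e)
    omega

include hF hcard in
theorem card_trace_mem_range :
    Nat.card {k : L // k + k ^ 64 ∈ (algebraMap F L).range} = 256 := by
  classical
  set T := cubicTrace (L := L) (pow_add_sixty_four (L := L) hF) with hT
  have hroots : ∀ P : L → Prop, (∀ a, P a → a ^ 64 = a) → Nat.card {a // P a} ≤ 64 := by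
    intro P hP
    have hne : (Polynomial.X ^ 64 - Polynomial.X : Polynomial L) ≠ 0 :=
      FiniteField.X_pow_card_sub_X_ne_zero L (by norm_num)
    rw [Nat.card_eq_fintype_card, Fintype.card_subtype]
    refine le_trans (Finset.card_le_card
      (t := (Polynomial.X ^ 64 - Polynomial.X : Polynomial L).roots.toFinset) fun a ha => ?_) ?_
    · rw [Finset.mem_filter] at ha
      rw [Multiset.mem_toFinset, Polynomial.mem_roots hne]
      simp [sub_eq_zero, hP a ha.2]
    · refine (Multiset.toFinset_card_le _).trans ((Polynomial.card_roots' _).trans ?_)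
      exact le_of_eq (FiniteField.X_pow_card_sub_X_natDegree_eq L (by norm_num))
  have hneg : ∀ a : L, -a = a := fun a => by
    have h2 : (2 : L) = 0 := by
      rw [← map_ofNat (algebraMap F L) 2, two_eq_zero hF, map_zero]
    linear_combination (-a) * h2
  have hsq : ∀ a : L, (a ^ 64) ^ 64 = a := fun a => by
    rw [← pow_mul, show (64 * 64 : ℕ) = 4096 from rfl, ← hcard, FiniteField.pow_card]
  have hfix : ∀ a ∈ T.range, a ^ 64 = a := by
    rintro a ⟨k, rfl⟩
    show (k + k ^ 64) ^ 64 = k + k ^ 64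
    rw [pow_add_sixty_four (L := L) hF, hsq, add_comm]
  have hk : Nat.card T.ker ≤ 64 := by
    refine hroots (· ∈ T.ker) fun a ha => ?_
    have h : a + a ^ 64 = 0 := ha
    rw [eq_neg_of_add_eq_zero_right h, hneg]
  have hr : Nat.card T.range ≤ 64 := hroots (· ∈ T.range) hfix
  have hm := T.ker.card_mul_index
  rw [AddSubgroup.index_ker, Nat.card_eq_fintype_card (α := L), hcard] at hm
  have hk' : Nat.card T.ker = 64 := by nlinarith
  have hr' : Nat.card T.range = 64 := by nlinarith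
  have hrange : (T.range : Set L) = {a | a ^ 64 = a} :=
    Set.eq_of_subset_of_ncard_le hfix (by
      rw [← Nat.card_coe_set_eq, ← Nat.card_coe_set_eq]
      exact (hroots _ fun a ha => ha).trans hr'.ge) (Set.toFinite _)
  let H : AddSubgroup L := (algebraMap F L).range.toAddSubgroup
  let r : H.comap T →+ L := T.comp (H.comap T).subtype
  have hrk : Nat.card r.ker = 64 := by
    rw [← hk']
    exact Nat.card_congr
      { toFun := fun a => ⟨a.1.1, a.2⟩
        invFun := fun a => ⟨⟨a.1, show T a.1 ∈ H by rw [(a.2 : T a.1 = 0)]; exact H.zero_mem⟩, a.2⟩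
        left_inv := fun a => rfl
        right_inv := fun a => rfl }
  have hrr : Nat.card r.range = 4 := by
    have h4 : ∀ c : F, (algebraMap F L c) ^ 64 = algebraMap F L c ↔ c ^ 4 = c := by
      intro c
      rw [← map_pow, (algebraMap F L).injective.eq_iff,
        show (64 : ℕ) = 16 * 4 from rfl, pow_mul, pow_sixteen hF]
    refine Eq.trans (Nat.card_congr (Equiv.ofBijective
      (fun c : {c : F // c ^ 4 = c} => (⟨algebraMap F L c.1, ?_⟩ : r.range)) ?_)).symm
      (H3.card_fixed hF)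
    · have : algebraMap F L c.1 ∈ (T.range : Set L) := by rw [hrange]; exact (h4 _).mpr c.2
      obtain ⟨k, hk⟩ := this
      exact ⟨⟨k, show T k ∈ H by rw [hk]; exact ⟨c.1, rfl⟩⟩, hk⟩
    · constructor
      · intro a b h
        exact Subtype.ext ((algebraMap F L).injective (congrArg Subtype.val h))
      · rintro ⟨a, k, rfl⟩
        obtain ⟨c, hc⟩ := (k.2 : T k.1 ∈ H)
        refine ⟨⟨c, (h4 c).mp ?_⟩, Subtype.ext hc⟩
        rw [hc]
        exact hfix _ ⟨k.1, rfl⟩
  have hm' := r.ker.card_mul_index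
  rw [AddSubgroup.index_ker, hrk, hrr] at hm'
  exact hm'.symm

include hF hrank hcard hξ hx hgen in
/-- The congruence for the number of vectors with the same Hermitian data. -/
theorem card_sameForms (g : Cfsg.SU 3 F 4) :
    ∃ m : ℕ, Nat.card {v : Fin 3 → F // SameForms φ g v} = 15 * m + 1 ∧ m % 5 = 3 := by
  classical
  obtain ⟨ε, hε⟩ := H3.exists_trace_eq hF (a := (1 : F)) (one_pow 4)
  set R := (algebraMap F L).range
  have hlhs : ∀ v : Fin 3 → F, ∑ k : L, chr (h3 v (diffMap φ g k v)) =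
      if SameForms φ g v then (4096 : ℤ) else 0 := by
    intro v
    split_ifs with h
    · simp only [herm_diffMap φ hF, h _, sub_self, chr_zero]
      simp [hcard]
    · obtain ⟨k₀, hk₀⟩ : ∃ k₀, h3 v (diffMap φ g k₀ v) ≠ 0 := by
        by_contra hcon
        push Not at hcon
        exact h fun k => sub_eq_zero.mp ((herm_diffMap φ hF g k v).symm.trans (hcon k))
      refine sum_chr_eq_zero hF (AddMonoidHom.mk' (fun k => h3 v (diffMap φ g k v)) fun a b => ?_)
        (a₀ := k₀) hk₀ fun c => ⟨(c ^ 4) • k₀, ?_⟩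
      · simp only [herm_diffMap φ hF, map_add, add_mulVec, h3, H3.hermForm_add_right hF]
        ring
      · show h3 v (diffMap φ g ((c ^ 4) • k₀) v) = c * h3 v (diffMap φ g k₀ v)
        simp only [herm_diffMap φ hF, map_smul, smul_mulVec, h3, H3.hermForm_smul_right hF,
          ← pow_mul]
        rw [show 4 * 4 = 16 from rfl, pow_sixteen hF]
        ring
  have hinner : ∀ k : L, ∑ v : Fin 3 → F, chr (h3 v (diffMap φ g k v)) =
      hermSum ε (diffMap φ g (k + k ^ 64)) := by
    intro k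
    refine Finset.sum_congr rfl fun v _ => ?_
    rw [← chr_trace_twist hF hε]
    congr 2
    have hA := adjoint_pow φ x ξ hF hξ hx hgen
    simp only [herm_diffMap φ hF, map_add, add_mulVec, h3] at *
    rw [H3.hermForm_add_right hF, H3.hermForm_add_right hF, ← hA, ← hA]
    have h4 : ∀ a b : F, (a - b) ^ 4 = a ^ 4 - b ^ 4 := fun a b => map_sub (H3.conjQ hF) a b
    rw [h4, H3.hermForm_pow_q hF, H3.hermForm_pow_q hF]
    ring
  have htriv : ∀ k : L, k + k ^ 64 ∈ R → hermSum ε (diffMap φ g (k + k ^ 64)) = 4096 := by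
    rintro k ⟨c, hc⟩
    rw [← hc]
    have : diffMap φ g (algebraMap F L c) = 0 := by
      refine LinearMap.ext fun u => ?_
      rw [diffMap_apply, AlgHom.commutes, Algebra.algebraMap_eq_smul_one, smul_mulVec, one_mulVec,
        smul_mulVec, one_mulVec, mulVec_smul, mat_inv_mulVec, sub_self]
      rfl
    simp [hermSum, this, h3, H3.hermForm_zero_right hF, chr_zero, hF]
  have hN := card_trace_mem_range (L := L) hF hcard
  rw [Nat.card_eq_fintype_card, Fintype.card_subtype] at hN
  have hfix : ∀ k : L, (k + k ^ 64) ^ 64 = k + k ^ 64 := fun k => by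
    rw [pow_add_sixty_four (L := L) hF, ← pow_mul, show (64 * 64 : ℕ) = 4096 from rfl, ← hcard,
      FiniteField.pow_card, add_comm]
  obtain ⟨k₁, hk₁⟩ : ∃ k : L, k + k ^ 64 ∉ R := by
    by_contra hcon
    push Not at hcon
    rw [Finset.filter_true_of_mem fun k _ => hcon k, Finset.card_univ, hcard] at hN
    omega
  set S := hermSum ε (diffMap φ g (k₁ + k₁ ^ 64)) with hS
  have hsum : (4096 : ℤ) * Nat.card {v : Fin 3 → F // SameForms φ g v} =
      256 * 4096 + 3840 * S := by
    calc (4096 : ℤ) * Nat.card {v : Fin 3 → F // SameForms φ g v}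
        = ∑ v : Fin 3 → F, if SameForms φ g v then (4096 : ℤ) else 0 := by
          rw [← Finset.sum_filter, Finset.sum_const, Nat.card_eq_fintype_card,
            Fintype.card_subtype]
          simp [mul_comm]
      _ = ∑ k : L, hermSum ε (diffMap φ g (k + k ^ 64)) := by
          simp only [← hlhs]
          rw [Finset.sum_comm]
          simp only [hinner]
      _ = ∑ k : L, if k + k ^ 64 ∈ R then 4096 else S := by
          refine Finset.sum_congr rfl fun k _ => ?_
          split_ifs with h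
          · exact htriv k h
          · exact hermSum_diffMap_eq φ x ξ hF hrank hξ hx hgen g hε h (hfix k) hk₁ (hfix k₁)
      _ = _ := by
          have hc : (Finset.univ.filter fun k : L => ¬ k + k ^ 64 ∈ R).card = 3840 := by
            have := Finset.card_filter_add_card_filter_not (s := (Finset.univ : Finset L))
              (fun k : L => k + k ^ 64 ∈ R)
            rw [hN, Finset.card_univ, hcard] at this
            omega
          rw [Finset.sum_ite, Finset.sum_const, Finset.sum_const, hN, hc]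
          simp
  have hval := hermSum_values hF hε _
    (diffMap_adjoint φ x ξ hF hξ hx hgen g (hfix k₁))
  rw [← hS] at hval
  set Z := Nat.card {v : Fin 3 → F // SameForms φ g v}
  exact ⟨(Z - 1) / 15, by omega, by omega⟩

include hF hrank hcard hξ hx hgen in
theorem sum_weilTwelve (g : Cfsg.SU 3 F 4) :
    ∑ i ∈ Finset.range 13, weilTwelve (x ^ i * g) = 0 := by
  classical
  have hsum : ∑ i ∈ Finset.range 13, eigCount (x ^ i * g) =
      (Finset.univ.filter fun v : Fin 3 → F => v ≠ 0 ∧ SameForms φ g v).card := by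
    simp only [eigCount, Nat.card_eq_fintype_card, Fintype.card_subtype]
    rw [← Finset.card_biUnion]
    · congr 1
      ext v
      simp only [Finset.mem_biUnion, Finset.mem_range, Finset.mem_filter, Finset.mem_univ,
        true_and]
      constructor
      · rintro ⟨i, hi, hv, h⟩
        exact ⟨hv, (sameForms_iff φ x ξ hF hrank hξ hx hgen g hv).mpr ⟨i, hi, h⟩⟩
      · rintro ⟨hv, h⟩
        obtain ⟨i, hi, h⟩ := (sameForms_iff φ x ξ hF hrank hξ hx hgen g hv).mp h
        exact ⟨i, hi, hv, h⟩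
    · intro i hi j hj hij
      refine Finset.disjoint_left.mpr fun v hvi hvj => hij ?_
      simp only [Finset.mem_filter] at hvi hvj
      exact eigen_index_unique φ x ξ hF hξ hx g hvi.2.1 (Finset.mem_range.mp hi)
        (Finset.mem_range.mp hj) hvi.2.2 hvj.2.2
  obtain ⟨m, hm, hm5⟩ := card_sameForms φ x ξ hF hrank hcard hξ hx hgen g
  have hzero : (Finset.univ.filter fun v : Fin 3 → F => v ≠ 0 ∧ SameForms φ g v).card = 15 * m := by
    rw [Nat.card_eq_fintype_card, Fintype.card_subtype] at hm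
    have h0 : (0 : Fin 3 → F) ∈ Finset.univ.filter fun v : Fin 3 → F => SameForms φ g v := by
      simp [SameForms]
    have e : (Finset.univ.filter fun v : Fin 3 → F => v ≠ 0 ∧ SameForms φ g v) =
        (Finset.univ.filter fun v : Fin 3 → F => SameForms φ g v).erase 0 := by
      ext v; simp
    rw [e, Finset.card_erase_of_mem h0, hm]
    omega
  have hdiv : ∑ i ∈ Finset.range 13, eigCount (x ^ i * g) / 15 = m := by
    rw [hzero] at hsum
    have h15 : ∑ i ∈ Finset.range 13, 15 * (eigCount (x ^ i * g) / 15) = 15 * m := by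
      rw [← hsum]
      exact Finset.sum_congr rfl fun i _ => Nat.mul_div_cancel' (fifteen_dvd_eigCount hF _)
    rw [← Finset.mul_sum] at h15
    omega
  simp only [weilTwelve, Finset.sum_sub_distrib, ← Nat.cast_sum, hdiv]
  rw [← ZMod.natCast_mod, hm5]
  simp only [Finset.sum_const, Finset.card_range, nsmul_one]
  decide

end Cubic

/-- The class function sums to zero over every coset of a subgroup of order 13. -/
theorem sum_weilTwelve_eq_zero (hF : Fintype.card F = 4 ^ 2) {x : Cfsg.SU 3 F 4}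
    (hx : orderOf x = 13) (g : Cfsg.SU 3 F 4) :
    ∑ i ∈ Finset.range 13, weilTwelve (x ^ i * g) = 0 := by
  have h13 : mat x ^ 13 = 1 := by rw [← map_pow, ← hx, pow_orderOf_eq_one, map_one]
  have hne : mat x ≠ 1 := fun h => by
    rw [mat_injective (h.trans (map_one mat).symm), orderOf_one] at hx
    omega
  obtain ⟨L, _, _, _, φ, ξ, hrank, hcard, hξ, hgen⟩ :=
    exists_cubic_field (by rw [hF]; rfl) (mat x) h13 hne
  exact sum_weilTwelve φ x ξ hF hrank hcard hξ hx hgen g

end Cfsg.Agent.H23.UThreeFour
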