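import Mathlib

/-!
An element of order 13 of a 3 × 3 matrix ring over a field with 16 elements spans a field with
4096 elements.
-/

set_option autoImplicit false

namespace Cfsg.Agent.H23.UThreeFour

open Polynomial

universe u

variable {F : Type u} [Field F] [Fintype F]

/-- The minimal polynomial of a matrix of order 13 is irreducible of degree 3. -/
theorem minpoly_irreducible_of_order_thirteen (hF : Fintype.card F = 16)
    (X₀ : Matrix (Fin 3) (Fin 3) F) (h13 : X₀ ^ 13 = 1) (hne : X₀ ≠ 1) :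
    Irreducible (minpoly F X₀) ∧ (minpoly F X₀).natDegree = 3 := by
  classical
  have h13F : ((13 : ℕ) : F) ≠ 0 := by
    intro h
    obtain ⟨p, hp⟩ := CharP.exists F
    have hpp : p.Prime := CharP.char_is_prime F p
    have h2 : p = 2 := by
      have hd : p ∣ 16 := by
        have := (CharP.cast_eq_zero_iff F p (Fintype.card F)).mp (FiniteField.cast_card_eq_zero F)
        rwa [hF] at this
      exact (Nat.prime_dvd_prime_iff_eq hpp Nat.prime_two).mp
        (hpp.dvd_of_dvd_pow (show p ∣ 2 ^ 4 by norm_num; exact hd))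
    subst h2
    have := (CharP.cast_eq_zero_iff F 2 13).mp h
    omega
  set m := minpoly F X₀ with hm
  have hint : IsIntegral F X₀ := Matrix.isIntegral X₀
  have hmne : m ≠ 0 := minpoly.ne_zero hint
  have hmdvd : m ∣ X ^ 13 - 1 := minpoly.dvd F X₀ (by simp [h13])
  have hsep : (X ^ 13 - 1 : F[X]).Separable := X_pow_sub_one_separable_iff.mpr h13F
  have hmdeg : m.natDegree ≤ 3 := by
    have h1 := natDegree_le_of_dvd (Matrix.minpoly_dvd_charpoly X₀)
      (Matrix.charpoly_monic X₀).ne_zero
    rwa [Matrix.charpoly_natDegree_eq_dim, Fintype.card_fin] at h1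
  obtain ⟨q, hqm, hqi, hqmon, hq1⟩ :
      ∃ q : F[X], q ∣ m ∧ Irreducible q ∧ q.Monic ∧ q ≠ X - C 1 := by
    by_contra hcon
    push Not at hcon
    have h1 : X - C (1 : F) ∣ m := by
      have hnu : ¬ IsUnit m := minpoly.not_isUnit F X₀
      obtain ⟨q, hqi, hqm⟩ := WfDvdMonoid.exists_irreducible_factor hnu hmne
      have hnz := leadingCoeff_ne_zero.mpr hqi.ne_zero
      have hmon : (q * C q.leadingCoeff⁻¹).Monic := monic_mul_leadingCoeff_inv hqi.ne_zero
      have hassoc : Associated q (q * C q.leadingCoeff⁻¹) :=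
        associated_mul_unit_right q _ (isUnit_C.mpr (isUnit_iff_ne_zero.mpr (inv_ne_zero hnz)))
      have := hcon _ (hassoc.symm.dvd.trans hqm) (hassoc.irreducible hqi) hmon
      exact this ▸ (hassoc.symm.dvd.trans hqm)
    obtain ⟨r, hr⟩ := h1
    have hru : IsUnit r := by
      by_contra hru
      have hr0 : r ≠ 0 := fun h => hmne (by rw [hr, h, mul_zero])
      obtain ⟨q, hqi, hqr⟩ := WfDvdMonoid.exists_irreducible_factor hru hr0
      have hnz := leadingCoeff_ne_zero.mpr hqi.ne_zero
      have hmon : (q * C q.leadingCoeff⁻¹).Monic := monic_mul_leadingCoeff_inv hqi.ne_zero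
      have hassoc : Associated q (q * C q.leadingCoeff⁻¹) :=
        associated_mul_unit_right q _ (isUnit_C.mpr (isUnit_iff_ne_zero.mpr (inv_ne_zero hnz)))
      have h := hcon _ ((hassoc.symm.dvd.trans hqr).trans (Dvd.intro_left _ hr.symm))
        (hassoc.irreducible hqi) hmon
      have hsq : (X - C (1 : F)) * (X - C 1) ∣ X ^ 13 - 1 := by
        refine dvd_trans ?_ hmdvd
        rw [hr]
        exact mul_dvd_mul_left _ (h ▸ hassoc.symm.dvd.trans hqr)
      exact (irreducible_X_sub_C (1 : F)).not_isUnit (hsep.squarefree _ hsq)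
    have hm1 : m = X - C 1 := by
      refine eq_of_monic_of_associated (minpoly.monic hint) (monic_X_sub_C 1) ?_
      rw [hr]
      exact associated_mul_unit_left _ r hru
    have := minpoly.aeval F X₀
    rw [← hm, hm1] at this
    simp only [map_sub, aeval_X, aeval_C, map_one, sub_eq_zero] at this
    exact hne this
  haveI := Fact.mk hqi
  haveI hfin : Module.Finite F (AdjoinRoot q) := hqmon.finite_adjoinRoot
  haveI : Finite (AdjoinRoot q) := Module.finite_of_finite F
  letI : Fintype (AdjoinRoot q) := Fintype.ofFinite _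
  have hroot : (AdjoinRoot.root q) ^ 13 = 1 := by
    have h := AdjoinRoot.mk_eq_zero.mpr (hqm.trans hmdvd)
    simp only [map_sub, map_pow, AdjoinRoot.mk_X, map_one, sub_eq_zero] at h
    exact h
  have hroot1 : AdjoinRoot.root q ≠ 1 := by
    intro h
    apply hq1
    have h1 : q ∣ X - C 1 := AdjoinRoot.mk_eq_zero.mp (by simp [h])
    exact eq_of_monic_of_associated hqmon (monic_X_sub_C 1)
      (hqi.associated_of_dvd (irreducible_X_sub_C 1) h1)
  have hq3 : q.natDegree ≤ 3 := (natDegree_le_of_dvd hqm hmne).trans hmdeg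
  have hcard : Fintype.card (AdjoinRoot q) = 16 ^ q.natDegree := by
    have hb := Module.card_fintype (AdjoinRoot.powerBasis hqi.ne_zero).basis
    rw [hb, hF, Fintype.card_fin, AdjoinRoot.powerBasis_dim]
  have hord : orderOf (AdjoinRoot.root q) = 13 :=
    orderOf_eq_prime (hp := ⟨by norm_num⟩) hroot hroot1
  have hd : 13 ∣ 16 ^ q.natDegree - 1 := by
    rw [← hcard, ← hord]
    refine orderOf_dvd_of_pow_eq_one (FiniteField.pow_card_sub_one_eq_one _ ?_)
    exact fun h => by simp [h] at hroot
  have hpos := hqi.natDegree_pos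
  have hdeg3 : q.natDegree = 3 := by
    rcases h : q.natDegree with _ | _ | _ | _ | k
    · omega
    · rw [h] at hd; norm_num at hd
    · rw [h] at hd; norm_num at hd
    · rfl
    · omega
  have hqm' : q = m :=
    (eq_of_monic_of_dvd_of_natDegree_le hqmon (minpoly.monic hint) hqm (hmdeg.trans hdeg3.ge)).symm
  exact ⟨hqm' ▸ hqi, hqm' ▸ hdeg3⟩

/-- An element of order 13 lies in a field with 4096 elements inside the matrix ring. -/
theorem exists_cubic_field (hF : Fintype.card F = 16)
    (X₀ : Matrix (Fin 3) (Fin 3) F) (h13 : X₀ ^ 13 = 1) (hne : X₀ ≠ 1) :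
    ∃ (L : Type u) (_ : Field L) (_ : Fintype L) (_ : Algebra F L)
      (φ : L →ₐ[F] Matrix (Fin 3) (Fin 3) F) (ξ : L),
      Module.finrank F L = 3 ∧ Fintype.card L = 4096 ∧ φ ξ = X₀ ∧ Algebra.adjoin F {ξ} = ⊤ := by
  classical
  obtain ⟨hi, hdeg⟩ := minpoly_irreducible_of_order_thirteen hF X₀ h13 hne
  haveI := Fact.mk hi
  have hmon := minpoly.monic (Matrix.isIntegral X₀)
  haveI hfin : Module.Finite F (AdjoinRoot (minpoly F X₀)) := hmon.finite_adjoinRoot
  haveI : Finite (AdjoinRoot (minpoly F X₀)) := Module.finite_of_finite F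
  letI : Fintype (AdjoinRoot (minpoly F X₀)) := Fintype.ofFinite _
  let φ : AdjoinRoot (minpoly F X₀) →ₐ[F] Matrix (Fin 3) (Fin 3) F :=
    Ideal.Quotient.liftₐ (Ideal.span {minpoly F X₀}) (aeval X₀) fun a ha => by
      obtain ⟨b, rfl⟩ := Ideal.mem_span_singleton.mp ha
      simp [minpoly.aeval]
  refine ⟨AdjoinRoot (minpoly F X₀), inferInstance, inferInstance, inferInstance, φ,
    AdjoinRoot.root _, ?_, ?_, ?_, ?_⟩
  · rw [(AdjoinRoot.powerBasis hi.ne_zero).finrank, AdjoinRoot.powerBasis_dim, hdeg]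
  · rw [Module.card_fintype (AdjoinRoot.powerBasis hi.ne_zero).basis, hF, Fintype.card_fin,
      AdjoinRoot.powerBasis_dim, hdeg]
    norm_num
  · show aeval X₀ (X : F[X]) = X₀
    simp
  · exact AdjoinRoot.adjoinRoot_eq_top

end Cfsg.Agent.H23.UThreeFour
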